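import Cfsg.Agent.H665.TIB
import Cfsg.Agent.H998.StrP.Arith

/-!
# Groups with TI Sylow subgroups: the Sylow normalizer is strongly `p`-embedded
-/

set_option autoImplicit false

namespace Cfsg.Agent.H665.TIC

open Subgroup Cfsg Cfsg.Agent.H666.TI Cfsg.Agent.H665.TIA Cfsg.Agent.H998.StrP Cfsg.Agent.EvenType.StrongP

variable {G : Type*} [Group G] [Finite G] {p : ℕ} [hp : Fact p.Prime]

/-- The Sylow normalizer of a group with TI Sylow `p`-subgroups is strongly `p`-embedded. -/
theorem strongP (h : IsTI p G) (P : Sylow p G) (hd : p ∣ Nat.card G)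
    (hn : normalizer ((P : Subgroup G) : Set G) ≠ ⊤) :
    IsStronglyPEmbedded p (normalizer ((P : Subgroup G) : Set G)) := by
  refine of_normIn ?_ hn ?_
  · have h1 : p ∣ Nat.card (P : Subgroup G) := by
      have := TIB.pow_dvd_sylow P (k := 1) (by rwa [pow_one])
      rwa [pow_one] at this
    exact h1.trans (Subgroup.card_dvd_of_le le_normalizer)
  · intro Q hQ hQN hQ1
    -- `Q ≤ P`
    have hQP : Q ≤ (P : Subgroup G) := by
      intro x hx
      have h1 : (P : Subgroup G) ⊔ zpowers x ≤ normalizer ((P : Subgroup G) : Set G) :=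
        sup_le le_normalizer ((zpowers_le.2 hx).trans hQN)
      have h2 : IsPGroup p ↥((P : Subgroup G) ⊔ zpowers x) :=
        P.isPGroup'.to_sup_of_normal_left' (hQ.to_le (zpowers_le.2 hx)) ((zpowers_le.2 hx).trans hQN)
      have h3 : (P : Subgroup G) ⊔ zpowers x = P := P.is_maximal' h2 le_sup_left
      rw [← h3]
      exact (le_sup_right : zpowers x ≤ _) (mem_zpowers x)
    obtain ⟨x, hx, hx1⟩ : ∃ x ∈ Q, x ≠ 1 := (Q.bot_or_exists_ne_one).resolve_left hQ1
    intro g hg
    refine mem_norm h P (hQP hx) hx1 (hQP ?_)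
    exact (mem_normalizer_iff.mp hg x).mp hx

/-- A simple group without strongly `p`-embedded subgroups, the Sylow `p`-subgroup not cyclic, is not TI. -/
theorem not_of_nosp [IsSimpleGroup G] (h : NoSP p G) (P : Sylow p G) (hnc : ¬ IsCyclic (P : Subgroup G)) :
    ¬ IsTI p G := by
  intro hT
  have hd : p ∣ Nat.card G := by
    by_contra hd
    apply hnc
    have h1 : Nat.card (P : Subgroup G) = 1 := by
      obtain ⟨m, hm⟩ := IsPGroup.iff_card.mp P.isPGroup'
      rcases Nat.eq_zero_or_pos m with h0 | h0
      · rw [hm, h0, pow_zero]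
      · exfalso
        apply hd
        have : p ∣ Nat.card (P : Subgroup G) := by rw [hm]; exact dvd_pow_self p h0.ne'
        exact this.trans (Subgroup.card_subgroup_dvd_card _)
    rw [Subgroup.card_eq_one] at h1
    rw [h1]
    infer_instance
  by_cases hn : normalizer ((P : Subgroup G) : Set G) = ⊤
  · have hP : (P : Subgroup G).Normal := normalizer_eq_top_iff.mp hn
    rcases hP.eq_bot_or_eq_top with h0 | h0
    · apply hnc
      rw [h0]
      infer_instance
    · have hG : IsPGroup p G := by
        have := P.isPGroup'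
        rw [h0] at this
        exact this.of_equiv Subgroup.topEquiv
      apply hnc
      have : Group.IsNilpotent G := hG.isNilpotent
      have hs : Group.IsSolvable G := inferInstance
      have hc : ∀ a b : G, a * b = b * a := fun a b => IsSimpleGroup.comm_iff_isSolvable.mpr hs a b
      let _ : CommGroup G := { (inferInstance : Group G) with mul_comm := hc }
      have : IsCyclic G := IsSimpleGroup.isCyclic
      infer_instance
  · exact h _ (strongP hT P hd hn)

/-- A group with a subgroup `K` which is simple with no strongly `p`-embedded subgroup. -/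
theorem normalizer_ne_top [IsSimpleGroup G] (P : Sylow p G) (hd : p ∣ Nat.card G) {q : ℕ} (hq : q.Prime) (hqp : q ≠ p)
    (hqd : q ∣ Nat.card G) : normalizer ((P : Subgroup G) : Set G) ≠ ⊤ := by
  intro hn
  have hP : (P : Subgroup G).Normal := normalizer_eq_top_iff.mp hn
  have h1 : p ∣ Nat.card (P : Subgroup G) := by
    have := TIB.pow_dvd_sylow P (k := 1) (by rwa [pow_one])
    rwa [pow_one] at this
  rcases hP.eq_bot_or_eq_top with h0 | h0
  · rw [h0, Subgroup.card_bot] at h1
    exact hp.out.one_lt.ne' (Nat.dvd_one.mp h1)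
  · have h2 : Nat.card G = Nat.card (P : Subgroup G) := by rw [h0]; exact Subgroup.card_top.symm
    obtain ⟨m, hm⟩ := IsPGroup.iff_card.mp P.isPGroup'
    rw [h2, hm] at hqd
    exact hqp ((Nat.prime_dvd_prime_iff_eq hq hp.out).mp (hq.dvd_of_dvd_pow hqd))

/-- The form used for the sporadic groups: `2` and `p` divide the order. -/
theorem not_of_nosp' [IsSimpleGroup G] (h : NoSP p G) (hp2 : p ≠ 2) (hd : p ∣ Nat.card G) (h2 : 2 ∣ Nat.card G) :
    ¬ IsTI p G := by
  intro hT
  obtain ⟨P⟩ : Nonempty (Sylow p G) := inferInstance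
  exact h _ (strongP hT P hd (normalizer_ne_top P hd Nat.prime_two hp2.symm h2))

/-- the strongly `p`-embedded subgroup -/
theorem exists_strongP [IsSimpleGroup G] (hT : IsTI p G) (hp2 : p ≠ 2) (hd : p ∣ Nat.card G) (h2 : 2 ∣ Nat.card G) :
    ∃ P : Sylow p G, IsStronglyPEmbedded p (normalizer ((P : Subgroup G) : Set G)) := by
  obtain ⟨P⟩ : Nonempty (Sylow p G) := inferInstance
  exact ⟨P, strongP hT P hd (normalizer_ne_top P hd Nat.prime_two hp2.symm h2)⟩

end Cfsg.Agent.H665.TIC
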