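import Mathlib
import Cfsg.Prelude.Def_Classification2
import Cfsg.Prelude.Def_Sporadic
import Cfsg.Prelude.Def_Exceptional

/-!
# The list of the simple groups with noncyclic TI Sylow `p`-subgroups, up to isomorphism
-/

set_option autoImplicit false

namespace Cfsg.Agent.H665.TIList

open Cfsg

/-- the list -/
def ConclI (p : ℕ) (G : Type*) [Group G] : Prop :=
  (∃ (F : Type) (_ : Field F) (_ : Fintype F) (n : ℕ), 2 ≤ n ∧ Fintype.card F = p ^ n ∧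
    Nonempty (G ≃* Matrix.ProjectiveSpecialLinearGroup (Fin 2) F)) ∨
  (∃ (F : Type) (_ : Field F) (_ : Fintype F) (n : ℕ), 1 ≤ n ∧ Fintype.card F = (p ^ n) ^ 2 ∧
    Nonempty (G ≃* Cfsg.PSU 3 F (p ^ n))) ∨
  (p = 2 ∧ Lie.IsoSuzuki G) ∨
  (p = 3 ∧ (Lie.IsoRee G ∨ (∃ (F : Type) (_ : Field F) (_ : Fintype F), Fintype.card F = 4 ∧
    Nonempty (G ≃* Matrix.ProjectiveSpecialLinearGroup (Fin 3) F)) ∨ Spor.IsoM11 G)) ∨
  (p = 5 ∧ (Lie.IsoTits G ∨ Spor.IsoMcL G)) ∨ (p = 11 ∧ Spor.IsoJ4 G)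

end Cfsg.Agent.H665.TIList
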