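import Mathlib
import Cfsg.Agent.H665.OddCent
import Cfsg.Agent.H665.NoPQ
import Cfsg.Agent.PermutationGroups.SylowFixed
import Cfsg.Agent.Lib.MinNormal
import Cfsg.Agent.Lib.SubnormalJoin
import Cfsg.Agent.PLocal.PSolvable
import Cfsg.Agent.S0043
import Cfsg.Prelude.Def_Involutions

/-!
# Transitive groups of degree `p ^ r` with centralizers of `p`-elements of odd order

Let `G` be faithful and transitive on `p ^ r` points, let `C_G(x)` have odd order for the nonidentity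
`p`-elements `x` and suppose `G` has no irreducible character of `p`-defect zero.

* `free` : nonidentity `p`-elements have no fixed points; `card_sylow` : Sylow `p`-subgroups have
  order `p ^ r`.
* `existsUnique_fixed` : involutions have exactly one fixed point.
* `eq_bot_of_normal` : normal subgroups of order prime to `p` are trivial.
* `two_pow_dvd` : if `2 ^ k` divides `|G|` then it divides `p ^ r - 1`.
-/

set_option autoImplicit false

namespace Cfsg.Agent.H665.TransPow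

open Cfsg Cfsg.Agent.H665.OddCent Cfsg.Agent.H665.NoPQ

variable {G Ω : Type*} [Group G] [Finite G] [MulAction G Ω] [FaithfulSMul G Ω]
  [MulAction.IsPretransitive G Ω] {p r : ℕ} [hp : Fact p.Prime]

include hp in
theorem comm_of_sylow (hC : OddCent p G) (h2 : 2 ∣ Nat.card G) (hno : ¬ HasDZ p G)
    (P : Sylow p G) {x y : G} (hx : x ∈ (P : Subgroup G)) (hy : y ∈ (P : Subgroup G)) :
    x * y = y * x := by
  obtain ⟨t, -, -, h⟩ := exists_invol_inverts_sylow hC h2 hno P
  exact comm_of_inverts h hx hy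

theorem free (hC : OddCent p G) (h2 : 2 ∣ Nat.card G) (hno : ¬ HasDZ p G)
    (hΩ : Nat.card Ω = p ^ r) {x : G} (hx : ∃ k : ℕ, orderOf x = p ^ k) {ω : Ω}
    (hω : x • ω = ω) : x = 1 := by
  obtain ⟨k, hk⟩ := hx
  have hz : IsPGroup p (Subgroup.zpowers x) := IsPGroup.of_card (n := k) (by
    rw [Nat.card_zpowers, hk])
  obtain ⟨P, hP⟩ := hz.exists_le_sylow
  have hxP : x ∈ (P : Subgroup G) := hP (Subgroup.mem_zpowers x)
  have htr : MulAction.IsPretransitive P Ω :=
    Cfsg.Agent.PermutationGroups.SylowFixed.sylow_isPretransitive hΩ P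
  refine FaithfulSMul.eq_of_smul_eq_smul (α := Ω) fun ω' => ?_
  obtain ⟨y, rfl⟩ := htr.exists_smul_eq ω ω'
  show x • ((y : G) • ω) = (1 : G) • ((y : G) • ω)
  rw [← mul_smul, comm_of_sylow hC h2 hno P hxP y.2, mul_smul, hω, one_smul]

theorem card_sylow (hC : OddCent p G) (h2 : 2 ∣ Nat.card G) (hno : ¬ HasDZ p G)
    (hΩ : Nat.card Ω = p ^ r) (P : Sylow p G) : Nat.card (P : Subgroup G) = p ^ r := by
  have htr : MulAction.IsPretransitive P Ω :=
    Cfsg.Agent.PermutationGroups.SylowFixed.sylow_isPretransitive hΩ P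
  have hne : Nonempty Ω := by
    have : 0 < Nat.card Ω := by rw [hΩ]; exact pow_pos hp.out.pos _
    exact (Nat.card_pos_iff.1 this).1
  obtain ⟨ω⟩ := hne
  rw [← hΩ]
  refine Nat.card_congr (Equiv.ofBijective (fun x : (P : Subgroup G) => (x : G) • ω) ⟨?_, ?_⟩)
  · intro x y hxy
    have h1 : ((y⁻¹ * x : (P : Subgroup G)) : G) • ω = ω := by
      rw [Subgroup.coe_mul, mul_smul]
      have : (x : G) • ω = (y : G) • ω := hxy
      rw [this, ← mul_smul, ← Subgroup.coe_mul, inv_mul_cancel, Subgroup.coe_one, one_smul]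
    obtain ⟨k, hk⟩ := IsPGroup.iff_orderOf.1 P.isPGroup' (y⁻¹ * x)
    have h2 := free hC h2 hno hΩ ⟨k, by rw [← hk, Subgroup.orderOf_coe]⟩ h1
    have h3 : y⁻¹ * x = 1 := Subtype.ext h2
    exact (inv_mul_eq_one.1 h3).symm
  · intro ω'
    obtain ⟨y, rfl⟩ := htr.exists_smul_eq ω ω'
    exact ⟨y, rfl⟩

theorem fixed_unique (hp2 : p ≠ 2) (hC : OddCent p G) (h2 : 2 ∣ Nat.card G) (hno : ¬ HasDZ p G)
    (hΩ : Nat.card Ω = p ^ r) {t : G} (ht : t * t = 1) (ht1 : t ≠ 1) {ω ω' : Ω}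
    (h : t • ω = ω) (h' : t • ω' = ω') : ω = ω' := by
  obtain ⟨u, hu, hup, htu⟩ := exists_inverted_of_no_defectZero hC hno ht ht1
  obtain ⟨P, hP⟩ := exists_sylow_inverted hC ht ht1 hu hup htu
  have htr : MulAction.IsPretransitive P Ω :=
    Cfsg.Agent.PermutationGroups.SylowFixed.sylow_isPretransitive hΩ P
  obtain ⟨y, rfl⟩ := htr.exists_smul_eq ω ω'
  have h1 : t • ((y : G) • ω) = (y : G) • ω := h'
  have h3 : (y : G)⁻¹ • ω = (y : G) • ω := by
    rw [← hP y y.2]
    calc (t * (y : G) * t⁻¹) • ω = (t * (y : G) * t⁻¹) • (t • ω) := by rw [h]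
      _ = t • ((y : G) • ω) := by rw [← mul_smul, ← mul_smul]; congr 1; group
      _ = (y : G) • ω := h1
  have h4 : ((y * y : (P : Subgroup G)) : G) • ω = ω := by
    rw [Subgroup.coe_mul, mul_smul, ← h3, ← mul_smul, mul_inv_cancel, one_smul]
  obtain ⟨k, hk⟩ := IsPGroup.iff_orderOf.1 P.isPGroup' (y * y)
  have h5 := free hC h2 hno hΩ ⟨k, by rw [← hk, Subgroup.orderOf_coe]⟩ h4
  have h6 : y * y = 1 := Subtype.ext h5
  obtain ⟨j, hj⟩ := IsPGroup.iff_orderOf.1 P.isPGroup' y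
  have h7 : orderOf y ∣ 2 := orderOf_dvd_of_pow_eq_one (by rw [pow_two]; exact h6)
  have h8 : orderOf y = 1 := by
    rw [hj] at h7 ⊢
    have : Nat.Coprime (p ^ j) 2 :=
      Nat.Coprime.pow_left _ ((Nat.coprime_primes hp.out Nat.prime_two).2 hp2)
    exact Nat.eq_one_of_dvd_coprimes this dvd_rfl h7
  rw [orderOf_eq_one_iff] at h8
  rw [h8]
  show ω = ((1 : (P : Subgroup G)) : G) • ω
  rw [Subgroup.coe_one, one_smul]

include hp in
theorem odd_card (hp2 : p ≠ 2) (hΩ : Nat.card Ω = p ^ r) : ¬ 2 ∣ Nat.card Ω := by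
  rw [hΩ]
  intro h
  exact hp2 ((Nat.prime_dvd_prime_iff_eq Nat.prime_two hp.out).1
    (Nat.prime_two.dvd_of_dvd_pow h)).symm

omit [Finite G] [FaithfulSMul G Ω] hp in
/-- A normal subgroup acts with orbits of `p`-power size. -/
theorem orbit_card_dvd (hΩ : Nat.card Ω = p ^ r) (N : Subgroup G) [N.Normal] (ω : Ω) :
    Nat.card (MulAction.orbit N ω) ∣ p ^ r := by
  have h1 := (MulAction.IsBlock.orbit_of_normal (N := N) ω).ncard_dvd_card (G := G)
    (MulAction.nonempty_orbit ω)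
  rw [hΩ] at h1
  exact h1

omit [Finite G] in
theorem eq_bot_of_normal (hΩ : Nat.card Ω = p ^ r) (N : Subgroup G) [N.Normal]
    (hN : ¬ p ∣ Nat.card N) : N = ⊥ := by
  rw [Subgroup.eq_bot_iff_forall]
  intro x hx
  refine FaithfulSMul.eq_of_smul_eq_smul (α := Ω) fun ω => ?_
  rw [one_smul]
  have h1 := orbit_card_dvd hΩ N ω
  have h2 : Nat.card (MulAction.orbit N ω) ∣ Nat.card N := by
    have h3 := MulAction.index_stabilizer N ω
    have h4 := (MulAction.stabilizer N ω).index_dvd_card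
    rw [h3] at h4
    exact h4
  have h3 : Nat.card (MulAction.orbit N ω) = 1 := by
    refine Nat.eq_one_of_dvd_coprimes (?_ : (p ^ r).Coprime (Nat.card N)) h1 h2
    exact Nat.Coprime.pow_left _ ((hp.out.coprime_iff_not_dvd).2 hN)
  have h4 : Subsingleton (MulAction.orbit N ω) := (Nat.card_eq_one_iff_unique.1 h3).1
  have h5 : (⟨x • ω, ⟨⟨x, hx⟩, rfl⟩⟩ : MulAction.orbit N ω) = ⟨ω, MulAction.mem_orbit_self ω⟩ :=
    Subsingleton.elim _ _
  exact congrArg Subtype.val h5

include hp in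
omit [Finite G] [FaithfulSMul G Ω] in
/-- An involution fixes a point in each orbit of a normal subgroup. -/
theorem exists_fixed (hp2 : p ≠ 2) (hΩ : Nat.card Ω = p ^ r) (N : Subgroup G) [N.Normal] (ω : Ω)
    {T : Subgroup G} (hT : IsPGroup 2 T) (hTN : T ≤ N) :
    ∃ ω' ∈ MulAction.orbit N ω, ∀ t ∈ T, t • ω' = ω' := by
  have h1 := orbit_card_dvd hΩ N ω
  have : Fact (Nat.Prime 2) := ⟨Nat.prime_two⟩
  have hpos : 0 < Nat.card Ω := by rw [hΩ]; exact pow_pos hp.out.pos _
  have hfin : Finite Ω := (Nat.card_pos_iff.1 hpos).2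
  have h2 : ¬ 2 ∣ Nat.card (MulAction.orbit N ω) := fun h =>
    odd_card hp2 hΩ (hΩ ▸ h.trans h1)
  let _ : MulAction T (MulAction.orbit N ω) :=
    MulAction.compHom _ (Subgroup.inclusion hTN)
  have hT' : IsPGroup 2 T := hT
  obtain ⟨x, hx⟩ := hT'.nonempty_fixed_point_of_prime_not_dvd_card (MulAction.orbit N ω) h2
  refine ⟨x, x.2, fun t ht => ?_⟩
  have h3 := hx ⟨t, ht⟩
  exact congrArg Subtype.val h3

/-- If `2 ^ k` divides `|G|` then it divides `p ^ r - 1`. -/
theorem two_pow_dvd (hp2 : p ≠ 2) (hC : OddCent p G) (h2 : 2 ∣ Nat.card G) (hno : ¬ HasDZ p G)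
    (hΩ : Nat.card Ω = p ^ r) {k : ℕ} (hk : 2 ^ k ∣ Nat.card G) : 2 ^ k ∣ p ^ r - 1 := by
  classical
  have : Fact (Nat.Prime 2) := ⟨Nat.prime_two⟩
  obtain ⟨T, hT⟩ := Sylow.exists_subgroup_card_pow_prime 2 hk
  have hT2 : IsPGroup 2 T := IsPGroup.of_card hT
  have hpos : 0 < Nat.card Ω := by rw [hΩ]; exact pow_pos hp.out.pos _
  have hfin : Finite Ω := (Nat.card_pos_iff.1 hpos).2
  obtain ⟨ω⟩ := (Nat.card_pos_iff.1 hpos).1
  have : Fintype T := Fintype.ofFinite T
  have : Fintype Ω := Fintype.ofFinite Ω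
  have hfix : ∀ t : T, t ≠ 1 → Fintype.card (MulAction.fixedBy Ω t) = 1 := by
    intro t ht
    rw [Fintype.card_eq_one_iff]
    have : (⊤ : Subgroup G).Normal := inferInstance
    obtain ⟨ω', -, hω'⟩ := exists_fixed hp2 hΩ (⊤ : Subgroup G) ω hT2 le_top
    refine ⟨⟨ω', hω' t t.2⟩, ?_⟩
    rintro ⟨y, hy⟩
    apply Subtype.ext
    -- an involution in the group generated by `t`
    obtain ⟨j, hj⟩ := IsPGroup.iff_orderOf.1 hT2 t
    have hj0 : j ≠ 0 := by
      rintro rfl
      exact ht (orderOf_eq_one_iff.1 (by simpa using hj))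
    obtain ⟨i, rfl⟩ : ∃ i, j = i + 1 := ⟨j - 1, by omega⟩
    have hs : orderOf ((t : G) ^ (2 ^ i)) = 2 := by
      have h3 : orderOf (t : G) = 2 ^ (i + 1) := by rw [Subgroup.orderOf_coe, hj]
      rw [orderOf_pow_of_dvd (by positivity) (by rw [h3]; exact pow_dvd_pow _ (by omega)), h3]
      rw [pow_succ]
      exact Nat.mul_div_cancel_left 2 (by positivity)
    have hs1 : (t : G) ^ (2 ^ i) ≠ 1 := by
      intro h
      rw [h, orderOf_one] at hs
      exact absurd hs (by norm_num)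
    have hss : (t : G) ^ (2 ^ i) * (t : G) ^ (2 ^ i) = 1 := by
      have h4 := pow_orderOf_eq_one ((t : G) ^ (2 ^ i))
      rw [hs, pow_two] at h4
      exact h4
    have hpow : ∀ z : Ω, (t : G) • z = z → ∀ n : ℕ, (t : G) ^ n • z = z := by
      intro z hz n
      induction n with
      | zero => rw [pow_zero, one_smul]
      | succ n ih => rw [pow_succ, mul_smul, hz, ih]
    exact fixed_unique hp2 hC h2 hno hΩ hss hs1 (hpow y hy _) (hpow ω' (hω' t t.2) _)
  have hburn := MulAction.sum_card_fixedBy_eq_card_orbits_mul_card_group T Ω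
  have hone : Fintype.card (MulAction.fixedBy Ω (1 : T)) = p ^ r := by
    rw [← hΩ, Nat.card_eq_fintype_card]
    refine Fintype.card_congr (Equiv.subtypeUnivEquiv fun x => ?_)
    exact one_smul _ _
  rw [← Finset.add_sum_erase _ _ (Finset.mem_univ (1 : T)), hone,
    Finset.sum_congr rfl (fun t ht => hfix t (Finset.ne_of_mem_erase ht)), Finset.sum_const,
    Finset.card_erase_of_mem (Finset.mem_univ _), Finset.card_univ, smul_eq_mul, mul_one] at hburn
  have hTc : Fintype.card T = 2 ^ k := by rw [← hT, Nat.card_eq_fintype_card]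
  rw [hTc] at hburn
  have h5 : 1 ≤ p ^ r := Nat.one_le_pow _ _ hp.out.pos
  have h6 : 1 ≤ 2 ^ k := Nat.one_le_two_pow
  have h7 : 2 ^ k ∣ (p ^ r - 1) + 2 ^ k := by
    refine ⟨Fintype.card (Quotient (MulAction.orbitRel T Ω)), ?_⟩
    rw [mul_comm, ← hburn]
    omega
  exact (Nat.dvd_add_left dvd_rfl).1 h7

end Cfsg.Agent.H665.TransPow
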