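import Mathlib

/-!
# Arithmetic of the orders of the Bender groups

A prime power `p ^ r`, `p` odd, dividing the order of one of the groups `PSL₂(q)`, `Sz(q)`, `PSU₃(q)`,
`q` even, and congruent to one modulo the order of a Sylow `2`-subgroup, is `q + 1`, with the group
`PSL₂(q)`.
-/

set_option autoImplicit false

namespace Cfsg.Agent.H665.TransPowArith

/-- A prime power dividing a product of two coprime-at-`p` factors. -/
theorem dvd_of_dvd_mul {p r a b : ℕ} (hp : p.Prime) (h : p ^ r ∣ a * b) (hb : ¬ p ∣ b) :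
    p ^ r ∣ a :=
  Nat.Coprime.dvd_of_dvd_mul_right (Nat.Coprime.pow_left _ ((hp.coprime_iff_not_dvd).2 hb)) h

theorem le_of_dvd_sub {p r q : ℕ} (hp : p.Prime) (hr : 1 ≤ r) (h : q ∣ p ^ r - 1) :
    q + 1 ≤ p ^ r := by
  have h1 : 1 < p ^ r := Nat.one_lt_pow (by omega) hp.one_lt
  have h2 := Nat.le_of_dvd (by omega) h
  omega

theorem psl {p r q : ℕ} (hp : p.Prime) (hp2 : p ≠ 2) (hr : 1 ≤ r) (hq : ¬ p ∣ q) (h4 : 4 ≤ q)
    (h1 : q ∣ p ^ r - 1) (h2 : p ^ r ∣ q * (q ^ 2 - 1)) : p ^ r = q + 1 := by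
  obtain ⟨t, rfl⟩ : ∃ t, q = t + 1 := ⟨q - 1, by omega⟩
  have e : (t + 1) ^ 2 - 1 = t * (t + 2) := by
    apply Nat.sub_eq_of_eq_add; ring
  rw [e, mul_comm] at h2
  have h3 := dvd_of_dvd_mul hp h2 hq
  have h5 := le_of_dvd_sub hp hr h1
  by_cases ht : p ∣ t
  · exfalso
    have h6 : ¬ p ∣ t + 2 := fun h => hp2 ((Nat.prime_dvd_prime_iff_eq hp Nat.prime_two).1
      ((Nat.dvd_add_right ht).1 h))
    have h7 := Nat.le_of_dvd (by omega) (dvd_of_dvd_mul hp h3 h6)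
    omega
  · rw [mul_comm] at h3
    have h7 := Nat.le_of_dvd (by omega) (dvd_of_dvd_mul hp h3 ht)
    omega

theorem suz {p r m : ℕ} (hp : p.Prime) (hp2 : p ≠ 2) (hr : 1 ≤ r) (hm : 1 ≤ m)
    (h1 : (2 ^ (2 * m + 1)) ^ 2 ∣ p ^ r - 1)
    (h2 : p ^ r ∣ (2 ^ (2 * m + 1)) ^ 2 * ((2 ^ (2 * m + 1)) ^ 2 + 1) * (2 ^ (2 * m + 1) - 1)) :
    False := by
  set s := 2 ^ m with hs
  have hs2 : 2 ≤ s := by
    calc 2 = 2 ^ 1 := by norm_num
      _ ≤ 2 ^ m := Nat.pow_le_pow_right (by norm_num) hm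
  have hps : ¬ p ∣ 2 ^ m := fun h => hp2
    ((Nat.prime_dvd_prime_iff_eq hp Nat.prime_two).1 (hp.dvd_of_dvd_pow h))
  have e : 2 ^ (2 * m + 1) = 2 * s ^ 2 := by rw [hs]; ring
  rw [e] at h1 h2
  have hq : ¬ p ∣ (2 * s ^ 2) ^ 2 := by
    intro h
    have h3 := hp.dvd_of_dvd_pow h
    rcases hp.dvd_mul.1 h3 with h | h
    · exact hp2 ((Nat.prime_dvd_prime_iff_eq hp Nat.prime_two).1 h)
    · exact hps (hp.dvd_of_dvd_pow h)
  rw [mul_assoc, mul_comm] at h2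
  have h3 := dvd_of_dvd_mul hp h2 hq
  have h5 := le_of_dvd_sub hp hr h1
  obtain ⟨t, ht⟩ : ∃ t, 2 * s ^ 2 = t + 1 := ⟨2 * s ^ 2 - 1, by
    have : 0 < s ^ 2 := by positivity
    omega⟩
  have ht1 : 2 * s ^ 2 - 1 = t := by omega
  rw [ht1] at h3
  have ht0 : 0 < t := by nlinarith
  by_cases htd : p ∣ t
  · have h6 : ¬ p ∣ (2 * s ^ 2) ^ 2 + 1 := by
      intro h
      rw [ht] at h
      have h7 : p ∣ t * (t + 2) + 2 := by
        convert h using 1; ring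
      exact hp2 ((Nat.prime_dvd_prime_iff_eq hp Nat.prime_two).1
        ((Nat.dvd_add_right (Dvd.dvd.mul_right htd _)).1 h7))
    rw [mul_comm] at h3
    have h7 := Nat.le_of_dvd ht0 (dvd_of_dvd_mul hp h3 h6)
    rw [ht] at h5
    nlinarith
  · have h6 := dvd_of_dvd_mul hp h3 htd
    have h7 := Nat.le_of_dvd (by positivity) h6
    have h8 : p ^ r = (2 * s ^ 2) ^ 2 + 1 := le_antisymm h7 h5
    obtain ⟨u, hu⟩ : ∃ u, s = u + 2 := ⟨s - 2, by omega⟩
    -- the two factors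
    have hA : (2 * u * u + 6 * u + 5) * (2 * u * u + 10 * u + 13) = p ^ r := by
      rw [h8, hu]; ring
    have hA1 : p ∣ 2 * u * u + 6 * u + 5 := by
      obtain ⟨k, -, hk⟩ := (Nat.dvd_prime_pow hp).1 (Dvd.intro _ hA)
      have hk0 : k ≠ 0 := by rintro rfl; rw [pow_zero] at hk; omega
      rw [hk]; exact dvd_pow_self p hk0
    have hB1 : p ∣ 2 * u * u + 10 * u + 13 := by
      obtain ⟨k, -, hk⟩ := (Nat.dvd_prime_pow hp).1 (Dvd.intro_left _ hA)
      have hk0 : k ≠ 0 := by rintro rfl; rw [pow_zero] at hk; omega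
      rw [hk]; exact dvd_pow_self p hk0
    have h9 : p ∣ 4 * s := by
      have h10 := Nat.dvd_sub hB1 hA1
      have h11 : 2 * u * u + 10 * u + 13 - (2 * u * u + 6 * u + 5) = 4 * s := by
        rw [hu]; omega
      rwa [h11] at h10
    rcases hp.dvd_mul.1 h9 with h | h
    · exact hp2 ((Nat.prime_dvd_prime_iff_eq hp Nat.prime_two).1
        (hp.dvd_of_dvd_pow (show p ∣ 2 ^ 2 by norm_num; exact h)))
    · exact hps h

theorem psu {p r t N : ℕ} (hp : p.Prime) (hp2 : p ≠ 2) (hr : 1 ≤ r) (hq : ¬ p ∣ t + 1)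
    (h4 : 4 ≤ t + 1) (h1 : (t + 1) ^ 3 ∣ p ^ r - 1) (h2 : p ^ r ∣ N)
    (hN : Nat.gcd 3 (t + 2) * N = (t + 1) ^ 3 * (t * ((t + 2) ^ 2 * (t ^ 2 + t + 1)))) : False := by
  have h5 := le_of_dvd_sub hp hr h1
  have hq3 : ¬ p ∣ (t + 1) ^ 3 := fun h => hq (hp.dvd_of_dvd_pow h)
  have key : ∀ j, p ^ j ∣ Nat.gcd 3 (t + 2) * N → p ^ j ∣ t * ((t + 2) ^ 2 * (t ^ 2 + t + 1)) := by
    intro j hj
    rw [hN, mul_comm] at hj
    exact dvd_of_dvd_mul hp hj hq3
  have hr2 : p ^ r ∣ Nat.gcd 3 (t + 2) * N := Dvd.dvd.mul_left h2 _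
  by_cases ht : p ∣ t
  · -- `p` divides `q - 1`
    have h6 : ¬ p ∣ (t + 2) ^ 2 * (t ^ 2 + t + 1) := by
      intro h
      rcases hp.dvd_mul.1 h with h | h
      · exact hp2 ((Nat.prime_dvd_prime_iff_eq hp Nat.prime_two).1
          ((Nat.dvd_add_right ht).1 (hp.dvd_of_dvd_pow h)))
      · have h7 : p ∣ t * (t + 1) + 1 := by convert h using 1; ring
        exact hp.one_lt.ne' (Nat.dvd_one.1 ((Nat.dvd_add_right (Dvd.dvd.mul_right ht _)).1 h7))
    have h7 := Nat.le_of_dvd (by omega) (dvd_of_dvd_mul hp (key r hr2) h6)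
    nlinarith [sq_nonneg t]
  · have h6 : ∀ j, p ^ j ∣ Nat.gcd 3 (t + 2) * N → p ^ j ∣ (t + 2) ^ 2 * (t ^ 2 + t + 1) := by
      intro j hj
      have := key j hj
      rw [mul_comm] at this
      exact dvd_of_dvd_mul hp this ht
    have hlast : p ^ r ∣ (t + 2) ^ 2 ∨ p ^ r ∣ t ^ 2 + t + 1 := by
      by_cases hpt : p ∣ t + 2
      swap
      · right
        have h7 : ¬ p ∣ (t + 2) ^ 2 := fun h => hpt (hp.dvd_of_dvd_pow h)
        have h8 := h6 r hr2
        rw [mul_comm] at h8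
        exact dvd_of_dvd_mul hp h8 h7
      left
      by_cases hp3 : p = 3
      · subst hp3
        have hg : Nat.gcd 3 (t + 2) = 3 := Nat.gcd_eq_left hpt
        have h7 := h6 (r + 1) (by rw [hg, pow_succ, mul_comm]; exact Nat.mul_dvd_mul_left 3 h2)
        obtain ⟨v, hv⟩ := hpt
        have hv1 : 1 ≤ v := by omega
        -- `t ^ 2 + t + 1 = 3 * (3 * v * (v - 1) + 1)`
        obtain ⟨w, rfl⟩ : ∃ w, v = w + 1 := ⟨v - 1, by omega⟩
        have ht' : t = 3 * w + 1 := by omega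
        have e : t ^ 2 + t + 1 = 3 * (3 * (w * (w + 1)) + 1) := by rw [ht']; ring
        rw [e, show (t + 2) ^ 2 * (3 * (3 * (w * (w + 1)) + 1)) =
          3 * ((t + 2) ^ 2 * (3 * (w * (w + 1)) + 1)) by ring, pow_succ, mul_comm (3 ^ r) 3] at h7
        have h8 := Nat.dvd_of_mul_dvd_mul_left (by norm_num) h7
        exact dvd_of_dvd_mul hp h8 (by omega)
      · have h7 : ¬ p ∣ t ^ 2 + t + 1 := by
          intro h
          obtain ⟨v, hv⟩ := hpt
          have h8 : p ∣ (t + 2) * (t + 2) := Dvd.dvd.mul_right ⟨v, hv⟩ _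
          have h9 : (t + 2) * (t + 2) = (t ^ 2 + t + 1) + 3 * (t + 1) := by ring
          rw [h9] at h8
          have h10 := (Nat.dvd_add_right h).1 h8
          rcases hp.dvd_mul.1 h10 with h11 | h11
          · exact hp3 ((Nat.prime_dvd_prime_iff_eq hp Nat.prime_three).1 h11)
          · exact hq h11
        exact dvd_of_dvd_mul hp (h6 r hr2) h7
    rcases hlast with h | h
    · have h7 := Nat.le_of_dvd (by positivity) h
      nlinarith [sq_nonneg t]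
    · have h7 := Nat.le_of_dvd (by positivity) h
      nlinarith [sq_nonneg t]

end Cfsg.Agent.H665.TransPowArith
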