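import Mathlib
import Cfsg.Agent.H665.TransPow
import Cfsg.Agent.H665.TransPowArith
import Cfsg.Agent.H665.Psl2Char
import Cfsg.Agent.S0280
import Cfsg.Prelude.Def_Exceptional

/-!
# Transitive groups of degree `p ^ r`: without characters of `p`-defect zero they are `p`-solvable

`isPSolvable` : let `G` be faithful and transitive on `p ^ r` points, `p` odd, `r ≥ 1`, of even order,
let the centralizers of the nonidentity `p`-elements have odd order, and suppose that `G` has no
irreducible character of `p`-defect zero.  Then `G` is `p`-solvable.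

The Odd Order Theorem (S0205) and Bender's theorem for simple groups (S0222) enter as the hypotheses
`OddOrder` and `Bender`.
-/

set_option autoImplicit false

namespace Cfsg.Agent.H665.TransPow

open Cfsg Cfsg.Agent.H665.OddCent Cfsg.Agent.H665.NoPQ Cfsg.Agent.Blocks.Basic

universe u v

/-- The Odd Order Theorem, as in S0205. -/
def OddOrder : Prop :=
  ∀ (X : Type u) [Group X] [Finite X], Odd (Nat.card X) → Group.IsSolvable X

/-- Bender's theorem for simple groups, as in S0222. -/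
def Bender : Prop :=
  ∀ (X : Type u) [Group X] [Finite X] [IsSimpleGroup X], (∃ a b : X, a * b ≠ b * a) →
    ∀ H : Subgroup X, Cfsg.IsStronglyEmbedded H →
    (∃ (F : Type) (_ : Field F) (_ : Fintype F), CharP F 2 ∧ 4 ≤ Fintype.card F ∧
      Nonempty (X ≃* Matrix.ProjectiveSpecialLinearGroup (Fin 2) F)) ∨ Cfsg.IsSuzuki X ∨
    (∃ (F : Type) (_ : Field F) (_ : Fintype F) (q : ℕ), Fintype.card F = q ^ 2 ∧ Even q ∧ 4 ≤ q ∧
      Nonempty (X ≃* Cfsg.PSU 3 F q))

variable {G : Type u} {Ω : Type v} [Group G] [Finite G]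

/-- A nontrivial normal `p`-subgroup makes `G` `p`-solvable. -/
theorem isPSolvable_of_normal_pGroup (hOO : OddOrder.{u}) {p : ℕ} [hp : Fact p.Prime] (hC : OddCent p G)
    (h2 : 2 ∣ Nat.card G) (hno : ¬ HasDZ p G) (K : Subgroup G) [K.Normal] (hK : IsPGroup p K)
    (hK0 : K ≠ ⊥) : IsPSolvable p G := by
  obtain ⟨⟨x, hxK⟩, hx⟩ := Subgroup.ne_bot_iff_exists_ne_one.1 hK0
  have hx1 : x ≠ 1 := fun h => hx (Subtype.ext h)
  obtain ⟨k, hk⟩ := IsPGroup.iff_orderOf.1 hK ⟨x, hxK⟩
  rw [Subgroup.orderOf_mk] at hk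
  set C := Subgroup.centralizer (K : Set G) with hCdef
  have hCn : C.Normal := inferInstance
  have hodd : Odd (Nat.card C) := by
    refine Odd.of_dvd_nat (hC x hx1 ⟨k, hk⟩) (Subgroup.card_dvd_of_le ?_)
    exact Subgroup.centralizer_le (by simpa using hxK)
  have hsol : Group.IsSolvable C := hOO _ hodd
  obtain ⟨P⟩ : Nonempty (Sylow p G) := inferInstance
  have hKP : K ≤ (P : Subgroup G) := hK.le_sylow_of_normal P
  have hPC : (P : Subgroup G) ≤ C := by
    intro y hy
    rw [hCdef, Subgroup.mem_centralizer_iff]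
    intro z hz
    exact comm_of_sylow hC h2 hno P (hKP hz) hy
  refine Cfsg.Agent.Lib.PSolvable.IsPSolvable_of_extension p C
    (Cfsg.Agent.Lib.PSolvable.IsPSolvable_of_solvable p) ?_
  refine Cfsg.Agent.PLocal.PSolvable.isPSolvable_of_coprime ?_
  have h3 : Nat.card (G ⧸ C) = C.index := rfl
  rw [h3, Nat.coprime_comm, hp.out.coprime_iff_not_dvd]
  intro h4
  exact P.not_dvd_index (h4.trans (Subgroup.index_dvd_of_le hPC))

/-- A minimal normal subgroup of order divisible by `2` and `p` is simple and not abelian. -/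
theorem simple_of_minimal {p : ℕ} [hp : Fact p.Prime] (hC : OddCent p G)
    (M : Subgroup G) [M.Normal] (hM : M ≠ ⊥)
    (hmin : ∀ N : Subgroup G, N.Normal → N ≤ M → N = ⊥ ∨ N = M)
    (h2 : 2 ∣ Nat.card M) (hpM : p ∣ Nat.card M) :
    IsSimpleGroup M ∧ ∃ a b : M, a * b ≠ b * a := by
  classical
  have : Fact (Nat.Prime 2) := ⟨Nat.prime_two⟩
  have hnc : ∀ a b : M, orderOf a = 2 → orderOf b = p → a * b ≠ b * a := by
    intro a b ha hb hab
    have h3 : orderOf (a : G) = 2 := by rw [Subgroup.orderOf_coe, ha]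
    have h4 : orderOf (b : G) = p := by rw [Subgroup.orderOf_coe, hb]
    refine not_commute_invol hC (t := (a : G)) (x := (b : G)) ?_ ?_ ?_ ⟨1, by rw [h4, pow_one]⟩
      (congrArg Subtype.val hab)
    · rw [← pow_two, ← h3, pow_orderOf_eq_one]
    · intro h
      rw [h, orderOf_one] at h3
      exact absurd h3 (by norm_num)
    · intro h
      rw [h, orderOf_one] at h4
      exact hp.out.one_lt.ne h4
  obtain ⟨T, m, -, hT, hm, ⟨e⟩⟩ := Cfsg.Agent.Lib.MinNormal.exists_mulEquiv_pi M hM hmin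
  have hcard : Nat.card M = Nat.card T ^ m := by
    rw [Nat.card_congr e.toEquiv, Nat.card_fun, Nat.card_fin]
  have h2T : 2 ∣ Nat.card T := Nat.prime_two.dvd_of_dvd_pow (hcard ▸ h2)
  have hpT : p ∣ Nat.card T := hp.out.dvd_of_dvd_pow (hcard ▸ hpM)
  obtain ⟨t, ht⟩ := exists_prime_orderOf_dvd_card' 2 h2T
  obtain ⟨x, hx⟩ := exists_prime_orderOf_dvd_card' p hpT
  have hm1 : m = 1 := by
    by_contra hne
    have hlt : 1 < m := by omega
    let i : Fin m := ⟨0, by omega⟩
    let j : Fin m := ⟨1, hlt⟩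
    have hij : i ≠ j := by
      intro h
      exact absurd (congrArg Fin.val h) (by simp [i, j])
    have h3 : orderOf (e.symm (Pi.mulSingle i t)) = 2 := by
      rw [MulEquiv.orderOf_eq, ← ht]
      exact orderOf_injective (MonoidHom.mulSingle (fun _ : Fin m => (T : Type _)) i)
        (fun a b h => Pi.mulSingle_injective (M := fun _ : Fin m => (T : Type _)) i h) t
    have h4 : orderOf (e.symm (Pi.mulSingle j x)) = p := by
      rw [MulEquiv.orderOf_eq, ← hx]
      exact orderOf_injective (MonoidHom.mulSingle (fun _ : Fin m => (T : Type _)) j)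
        (fun a b h => Pi.mulSingle_injective (M := fun _ : Fin m => (T : Type _)) j h) x
    refine hnc _ _ h3 h4 ?_
    rw [← map_mul, ← map_mul]
    congr 1
    exact (Pi.mulSingle_commute (f := fun _ : Fin m => (T : Type _)) hij t x)
  subst hm1
  have e' : M ≃* T := e.trans (MulEquiv.funUnique (Fin 1) T)
  have hsimple : IsSimpleGroup M := by
    have := hT
    exact e'.isSimpleGroup_congr.2 hT
  refine ⟨hsimple, e'.symm t, e'.symm x, hnc _ _ ?_ ?_⟩
  · rw [MulEquiv.orderOf_eq, ht]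
  · rw [MulEquiv.orderOf_eq, hx]

variable [MulAction G Ω] [FaithfulSMul G Ω] [MulAction.IsPretransitive G Ω] {p r : ℕ}
  [hp : Fact p.Prime]

/-- A minimal normal subgroup is simple nonabelian and has even order, or `G` is `p`-solvable. -/
theorem exists_simple (hOO : OddOrder.{u}) (hC : OddCent p G) (h2 : 2 ∣ Nat.card G)
    (hno : ¬ HasDZ p G) (hΩ : Nat.card Ω = p ^ r) :
    IsPSolvable p G ∨ ∃ M : Subgroup G, M.Normal ∧ 2 ∣ Nat.card M ∧ IsSimpleGroup M ∧
      ∃ a b : M, a * b ≠ b * a := by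
  have hnt : Nontrivial G := by
    by_contra h
    rw [not_nontrivial_iff_subsingleton] at h
    rw [Nat.card_of_subsingleton (1 : G)] at h2
    omega
  obtain ⟨M, hMn, hM0, hmin⟩ := Cfsg.Agent.Lib.SubnormalJoin.exists_minimal_normal G
  have hpM : p ∣ Nat.card M := by
    by_contra h
    exact hM0 (eq_bot_of_normal hΩ M h)
  by_cases h2M : 2 ∣ Nat.card M
  · right
    exact ⟨M, hMn, h2M, simple_of_minimal hC M hM0 hmin h2M hpM⟩
  left
  have hodd : Odd (Nat.card M) := by
    rw [← Nat.not_even_iff_odd, even_iff_two_dvd]; exact h2M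
  have hsol : Group.IsSolvable M := hOO _ hodd
  have hMnt : Nontrivial M := (Subgroup.nontrivial_iff_ne_bot M).2 hM0
  have hps : IsPSolvable p M := Cfsg.Agent.Lib.PSolvable.IsPSolvable_of_solvable p
  refine isPSolvable_of_normal_pGroup hOO hC h2 hno M ?_ hM0
  have haux : ∀ K : Subgroup M, K.Characteristic → K ≠ ⊥ → K.map M.subtype = M := by
    intro K hK hK0
    have h3 : (K.map M.subtype).Normal := inferInstance
    rcases hmin _ h3 (Subgroup.map_subtype_le K) with h | h
    · exact absurd ((Subgroup.map_eq_bot_iff_of_injective K (Subgroup.subtype_injective M)).1 h) hK0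
    · exact h
  rcases Cfsg.Agent.Lib.PSolvable.exists_core_ne_bot p hps with h | h
  · have h4 := haux _ (Cfsg.Agent.Lib.PSolvable.pCore_characteristic p) h
    rw [← h4]
    exact (Cfsg.Agent.Lib.HallHigman.pCore_isPGroup p).map _
  · exfalso
    have h4 := haux _ (Cfsg.Agent.Lib.PSolvable.pPrimeCore_characteristic p) h
    have h5 : (Nat.card (pPrimeCore p M)).Coprime p :=
      Cfsg.Agent.Lib.HallHigman.pPrimeCore_coprime p
    rw [← h4, Subgroup.card_map_of_injective (Subgroup.subtype_injective _)] at hpM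
    exact hp.out.one_lt.ne' (Nat.eq_one_of_dvd_coprimes h5 hpM dvd_rfl)

omit [Finite G] [MulAction G Ω] [FaithfulSMul G Ω] [MulAction.IsPretransitive G Ω] hp in
/-- Order of `PSU(3, q)`. -/
theorem card_psu_three {F : Type*} [Field F] [Fintype F] {t : ℕ}
    (hF : Fintype.card F = (t + 1) ^ 2) :
    Nat.gcd 3 (t + 2) * Nat.card (Cfsg.PSU 3 F (t + 1))
      = (t + 1) ^ 3 * (t * ((t + 2) ^ 2 * (t ^ 2 + t + 1))) := by
  have h := Cfsg.Agent.S0280.result (F := F) hF 3 (by norm_num)
  rw [Finset.prod_range_succ, Finset.prod_range_succ, Finset.prod_range_one] at h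
  have e1 : (t + 1) ^ (1 + 1) - 1 = t * (t + 2) := by
    apply Nat.sub_eq_of_eq_add
    ring
  have e3 : (t + 1) ^ (2 + 1) + 1 = (t + 2) * (t ^ 2 + t + 1) := by ring
  rw [if_pos (by decide), if_neg (by decide), if_pos (by decide), e1, e3] at h
  apply Nat.eq_of_mul_eq_mul_left (Nat.succ_pos (t + 1))
  change (t + 2) * _ = (t + 2) * _
  have e4 : t + 1 + 1 = t + 2 := rfl
  rw [e4] at h
  calc (t + 2) * (Nat.gcd 3 (t + 2) * Nat.card (Cfsg.PSU 3 F (t + 1)))
      = Nat.gcd 3 (t + 2) * ((t + 2) * Nat.card (Cfsg.PSU 3 F (t + 1))) := by ring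
    _ = _ := by
      rw [h]
      norm_num
      ring

/-- **Main theorem.** -/
theorem isPSolvable (hOO : OddOrder.{u}) (hB : Bender.{u}) (hp2 : p ≠ 2) (hr : 1 ≤ r) (hC : OddCent p G) (h2 : 2 ∣ Nat.card G)
    (hno : ¬ HasDZ p G) (hΩ : Nat.card Ω = p ^ r) : IsPSolvable p G := by
  classical
  have : Fact (Nat.Prime 2) := ⟨Nat.prime_two⟩
  rcases exists_simple hOO hC h2 hno hΩ with h | ⟨M, hMn, h2M, hMs, hna⟩
  · exact h
  exfalso
  have hpos : 0 < Nat.card Ω := by rw [hΩ]; exact pow_pos hp.out.pos _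
  have hfin : Finite Ω := (Nat.card_pos_iff.1 hpos).2
  obtain ⟨ω⟩ := (Nat.card_pos_iff.1 hpos).1
  -- an involution of `M`
  obtain ⟨t, ht⟩ := exists_prime_orderOf_dvd_card' 2 h2M
  have hinv : ∀ s : M, orderOf s = 2 → (s : G) * s = 1 ∧ (s : G) ≠ 1 := by
    intro s hs
    have h3 : orderOf (s : G) = 2 := by rw [Subgroup.orderOf_coe, hs]
    refine ⟨by rw [← pow_two, ← h3, pow_orderOf_eq_one], ?_⟩
    intro h
    rw [h, orderOf_one] at h3
    exact absurd h3 (by norm_num)
  -- `M` is transitive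
  have htM : IsPGroup 2 (Subgroup.zpowers (t : G)) := isPGroup_two_zpowers (hinv t ht).1
  have htle : Subgroup.zpowers (t : G) ≤ M := by
    rw [Subgroup.zpowers_le]; exact t.2
  have htrM : MulAction.IsPretransitive M Ω := by
    constructor
    intro a b
    obtain ⟨a', ha', hfa⟩ := exists_fixed hp2 hΩ M a htM htle
    obtain ⟨b', hb', hfb⟩ := exists_fixed hp2 hΩ M b htM htle
    have hab : a' = b' := fixed_unique hp2 hC h2 hno hΩ (hinv t ht).1 (hinv t ht).2
      (hfa _ (Subgroup.mem_zpowers _)) (hfb _ (Subgroup.mem_zpowers _))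
    subst hab
    obtain ⟨x, rfl⟩ := ha'
    obtain ⟨y, hy⟩ := hb'
    refine ⟨y⁻¹ * x, ?_⟩
    have hy' : y • b = x • a := hy
    rw [mul_smul, ← hy', inv_smul_smul]
  have hdiv : p ^ r ∣ Nat.card M := by
    have h3 := MulAction.index_stabilizer_of_transitive M ω
    rw [← hΩ, ← h3]
    exact (MulAction.stabilizer M ω).index_dvd_card
  have hrN : (Nat.card G).factorization p = r := by
    obtain ⟨P⟩ : Nonempty (Sylow p G) := inferInstance
    have h3 := card_sylow hC h2 hno hΩ P
    rw [P.card_eq_multiplicity] at h3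
    exact Nat.pow_right_injective hp.out.two_le h3
  have htwo : ∀ k, 2 ^ k ∣ Nat.card M → 2 ^ k ∣ p ^ r - 1 := fun k hk =>
    two_pow_dvd hp2 hC h2 hno hΩ (hk.trans (Subgroup.card_subgroup_dvd_card M))
  have hp2' : ∀ k, ¬ p ∣ 2 ^ k := fun k h => hp2
    ((Nat.prime_dvd_prime_iff_eq hp.out Nat.prime_two).1 (hp.out.dvd_of_dvd_pow h))
  -- point stabilizers are strongly embedded
  have hse : IsStronglyEmbedded (MulAction.stabilizer M ω) := by
    refine ⟨?_, ?_, ?_⟩
    · intro h
      have h3 := MulAction.index_stabilizer_of_transitive M ω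
      rw [h, Subgroup.index_top, hΩ] at h3
      exact (Nat.one_lt_pow (by omega) hp.out.one_lt).ne h3
    · have h3 := (MulAction.stabilizer M ω).card_mul_index
      rw [MulAction.index_stabilizer_of_transitive M ω] at h3
      rw [even_iff_two_dvd]
      rcases Nat.prime_two.dvd_mul.1 (h3 ▸ h2M) with h | h
      · exact h
      · exact absurd h (odd_card hp2 hΩ)
    · intro g hg
      rw [← Nat.not_even_iff_odd, even_iff_two_dvd]
      intro hd
      obtain ⟨⟨s, hs12⟩, hs⟩ := exists_prime_orderOf_dvd_card' 2 hd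
      rw [Subgroup.orderOf_mk] at hs
      obtain ⟨hs1, u, hu, hus⟩ := hs12
      apply hg
      rw [MulAction.mem_stabilizer_iff]
      refine fixed_unique hp2 hC h2 hno hΩ (hinv s hs).1 (hinv s hs).2 ?_ hs1
      have hu' : u • ω = ω := hu
      have hus' : g * u * g⁻¹ = s := hus
      show s • (g • ω) = g • ω
      rw [← hus', mul_smul, inv_smul_smul, mul_smul, hu']
  rcases hB _ hna _ hse with ⟨F, _, _, hchar, h4, ⟨e⟩⟩ | hsz |
    ⟨F, _, _, q, hF, hq, hq4, ⟨e⟩⟩
  · -- `PSL₂`
    have h20 : (2 : F) = 0 := by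
      have := CharP.cast_eq_zero F 2
      exact_mod_cast this
    obtain ⟨n, hn2, hn⟩ := FiniteField.card F 2
    have heven : Even (Fintype.card F) := by
      rw [hn, even_iff_two_dvd]
      exact dvd_pow_self 2 n.pos.ne'
    have hcard : Nat.card M = Fintype.card F * (Fintype.card F ^ 2 - 1) := by
      rw [Nat.card_congr e.toEquiv,
        Cfsg.Agent.ClassicalGeometry.PSL2Basic.card_PSL2_even (F := F) (heven := heven)]
    have hq : p ^ r = Fintype.card F + 1 := by
      refine TransPowArith.psl hp.out hp2 hr (hn ▸ hp2' _) h4 ?_ (hcard ▸ hdiv)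
      rw [hn]
      exact htwo _ (by rw [hcard, ← hn]; exact Dvd.intro _ rfl)
    obtain ⟨ψ, hψ⟩ := Psl2Char.exists_irr_psl_two h20 h4
    obtain ⟨θ, hθ⟩ := Psl2Char.exists_irr_of_equiv e ψ
    obtain ⟨χ, hχ⟩ := Psl2Char.exists_over_dvd M θ
    rw [hθ, hψ, ← hq] at hχ
    refine hno ⟨χ, ?_⟩
    have hd : charDegree (χ : G → ℂ) ∣ Nat.card G := Cfsg.Agent.Blocks.Knorr.charDegree_dvd χ.2
    have hd0 : charDegree (χ : G → ℂ) ≠ 0 := (charDegree_pos χ.2).ne'
    refine le_antisymm ((Nat.factorization_le_iff_dvd hd0 Nat.card_pos.ne').2 hd p) ?_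
    rw [hrN]
    exact (hp.out.pow_dvd_iff_le_factorization hd0).1 hχ
  · -- Suzuki groups
    obtain ⟨-, m, hm, hcard⟩ := hsz
    refine TransPowArith.suz hp.out hp2 hr hm ?_ (hcard ▸ hdiv)
    rw [← pow_mul]
    refine htwo _ ?_
    rw [hcard, pow_mul, mul_assoc]
    exact Dvd.intro _ rfl
  · -- `PSU₃`
    obtain ⟨t', rfl⟩ : ∃ t', q = t' + 1 := ⟨q - 1, by omega⟩
    -- `q` is a power of two
    obtain ⟨k, hk⟩ : ∃ k, t' + 1 = 2 ^ k := by
      obtain ⟨ℓ, hℓ⟩ := CharP.exists F
      obtain ⟨n, hn2, hn⟩ := FiniteField.card F ℓ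
      have h2ℓ : 2 ∣ ℓ ^ (n : ℕ) := by
        rw [← hn, hF]
        exact (even_iff_two_dvd.1 hq).trans (dvd_pow_self _ (by norm_num))
      have h2ℓ' : 2 = ℓ := (Nat.prime_dvd_prime_iff_eq Nat.prime_two hn2).1
        (Nat.prime_two.dvd_of_dvd_pow h2ℓ)
      obtain ⟨k, -, hk⟩ := (Nat.dvd_prime_pow Nat.prime_two).1
        (show t' + 1 ∣ 2 ^ (n : ℕ) by rw [h2ℓ', ← hn, hF]; exact dvd_pow_self _ (by norm_num))
      exact ⟨k, hk⟩
    have hc := card_psu_three (F := F) hF
    rw [← Nat.card_congr e.toEquiv] at hc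
    have h3div : (2 ^ k) ^ 3 ∣ Nat.card M := by
      have h5 : Nat.Coprime ((2 ^ k) ^ 3) (Nat.gcd 3 (t' + 2)) := by
        refine Nat.Coprime.pow_left _ (Nat.Coprime.pow_left _ ?_)
        exact Nat.Coprime.coprime_dvd_right (Nat.gcd_dvd_left 3 _) (by norm_num)
      refine h5.dvd_of_dvd_mul_left ?_
      rw [hc, hk]
      exact Dvd.intro _ rfl
    refine TransPowArith.psu hp.out hp2 hr (hk ▸ hp2' _) hq4 ?_ hdiv hc
    rw [hk, ← pow_mul]
    exact htwo _ (by rw [pow_mul]; exact h3div)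

end Cfsg.Agent.H665.TransPow
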